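import Mathlib

/-!
# S3691, row `PΩ⁺₈(q)`: SPIN: the group theoretic data of `PSp₆(q)` and `Ω₇(q)` (helper953)
-/

set_option autoImplicit false

namespace Cfsg.Agent.H953.O8R

/-- the conjugate `g M g⁻¹` -/
abbrev cj {G : Type*} [Group G] (g : G) (M : Subgroup G) : Subgroup G := M.map (MulAut.conj g).toMonoidHom

/-- rotation data: `t i` of order `> 2`, `L i` perfect, centralising `t i` and containing `t j` (`j ≠ i`); `A`, `B` perfect commuting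
subgroups of `L 0` with normal closure `L 0` -/
structure Rot (G : Type*) [Group G] (n : ℕ) (t : Fin 3 → G) (L : Fin 3 → Subgroup G) (A B : Subgroup G) : Prop where
  pow : ∀ i, t i ^ n = 1
  sq : ∀ i, t i ^ 2 ≠ 1
  perf : ∀ i, ⁅L i, L i⁆ = L i
  cent : ∀ i, ∀ x ∈ L i, x * t i = t i * x
  mem : ∀ i j, i ≠ j → t j ∈ L i
  conj : ∀ i, ∃ g : G, t i = g * t 0 * g⁻¹ ∧ L i = cj g (L 0)
  A_le : A ≤ L 0
  B_le : B ≤ L 0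
  comm : ∀ a ∈ A, ∀ b ∈ B, a * b = b * a
  A_perf : ⁅A, A⁆ = A
  B_perf : ⁅B, B⁆ = B
  A_top : ∀ N : Subgroup G, N ≤ L 0 → (∀ g ∈ L 0, ∀ x ∈ N, g * x * g⁻¹ ∈ N) → A ≤ N → N = L 0
  B_top : ∀ N : Subgroup G, N ≤ L 0 → (∀ g ∈ L 0, ∀ x ∈ N, g * x * g⁻¹ ∈ N) → B ≤ N → N = L 0

/-- data of `PSp₆(q)`: `M i = Sp(⟨e i, f i⟩)`, `L i = Sp(⟨e i, f i⟩^⊥)` -/
structure DSp (G : Type*) [Group G] (n : ℕ) (t : Fin 3 → G) (L M : Fin 3 → Subgroup G) : Prop where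
  rot : Rot G n t L (M 1) (M 2)
  perf : ∀ i, ⁅M i, M i⁆ = M i
  mem : ∀ i, t i ∈ M i
  cent : ∀ i, ∀ x ∈ L i, ∀ y ∈ M i, x * y = y * x
  le : ∀ i j, i ≠ j → M j ≤ L i
  top : L 0 ⊔ L 1 = ⊤

/-- data of `Ω₇(q)`, `q` odd: `M = Ω(U)`, `U = Π₀ ⊥ ⟨e⟩` nondegenerate of dimension three, `U^⊥ = Π₁ ⊥ Π₂` of plus type, the `Π i`
anisotropic planes, `t i ∈ Ω(Π i)`, `L i = Ω((Π i)^⊥)` -/
structure DOm (G : Type*) [Group G] (n : ℕ) (t : Fin 3 → G) (L : Fin 3 → Subgroup G) (A B M : Subgroup G) (s : G) (k : ℕ)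
    (g : Fin 5 → G) : Prop where
  rot : Rot G n t L A B
  perf : ⁅M, M⁆ = M
  mem : t 0 ∈ M
  le₁ : M ≤ L 1
  le₂ : M ≤ L 2
  M_top : ∀ N : Subgroup G, N ≤ M → (∀ g ∈ M, ∀ x ∈ N, g * x * g⁻¹ ∈ N) → t 0 ∈ N → N = M
  odd : Odd k
  s_pow : s ^ k = 1
  s_comm : ∀ x ∈ M, ∀ y ∈ M, x * (s * y * s⁻¹) = (s * y * s⁻¹) * x
  g_zero : g 0 = 1
  link : ∀ i : Fin 5, i ≠ 0 → ∃ j < i, ∃ x ∈ cj (g i) M, x ∈ cj (g j) M ∧ x ^ 2 ≠ 1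
  top : ⨆ i, cj (g i) M = ⊤

end Cfsg.Agent.H953.O8R
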