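import Mathlib

/-!
# S3691, row `PΩ⁺₈(q)`: SPIN: endomorphisms with `T ^ q = T` (helper953)
-/

set_option autoImplicit false
set_option linter.unusedSectionVars false

namespace Cfsg.Agent.H953.O8R

open Module Polynomial

variable {F V : Type*} [Field F] [Fintype F] [AddCommGroup V] [Module F V]

theorem prod_X_sub_C' : ∏ c : F, (X - C c : F[X]) = X ^ Fintype.card F - X := by
  have h1 := Polynomial.prod_multiset_X_sub_C_of_monic_of_roots_card_eq (p := (X ^ Fintype.card F - X : F[X]))
    (Polynomial.monic_X_pow_sub (by rw [degree_X]; exact_mod_cast Fintype.one_lt_card)) (by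
      rw [FiniteField.roots_X_pow_card_sub_X, FiniteField.X_pow_card_sub_X_natDegree_eq F Fintype.one_lt_card]
      rfl)
  rw [FiniteField.roots_X_pow_card_sub_X] at h1
  exact h1

theorem iSup_eig (T : Module.End F V) (h : T ^ Fintype.card F = T) : ⨆ c : F, T.eigenspace c = ⊤ := by
  classical
  rw [eq_top_iff]
  intro v _
  have h1 : ∑ c : F, ∏ d ∈ Finset.univ.erase c, (X - C d : F[X]) = -1 := by
    have h2 := congrArg derivative (prod_X_sub_C' (F := F))
    rw [derivative_prod_finset, derivative_sub, derivative_X_pow, derivative_X, FiniteField.cast_card_eq_zero, map_zero, zero_mul,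
      zero_sub] at h2
    rw [← h2]
    refine Finset.sum_congr rfl fun c _ => ?_
    rw [derivative_sub, derivative_X, derivative_C, sub_zero, mul_one]
  have h3 : v = ∑ c : F, -(aeval T (∏ d ∈ Finset.univ.erase c, (X - C d : F[X])) v) := by
    have h4 := congrArg (fun p : F[X] => aeval T p v) h1
    simp only [map_sum, LinearMap.sum_apply, map_neg, map_one, LinearMap.neg_apply, Module.End.one_apply] at h4
    rw [Finset.sum_neg_distrib, h4, neg_neg]
  rw [h3]
  refine Submodule.sum_mem _ fun c _ => Submodule.neg_mem _ (Submodule.mem_iSup_of_mem c ?_)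
  rw [Module.End.mem_eigenspace_iff, ← sub_eq_zero]
  have h5 : aeval T ((X - C c) * ∏ d ∈ Finset.univ.erase c, (X - C d : F[X])) v = 0 := by
    rw [Finset.mul_prod_erase Finset.univ (fun d => (X - C d : F[X])) (Finset.mem_univ c), prod_X_sub_C', map_sub, map_pow, aeval_X,
      h, sub_self, LinearMap.zero_apply]
  rw [map_mul, Module.End.mul_apply, map_sub, aeval_X, aeval_C, LinearMap.sub_apply, Module.algebraMap_end_apply] at h5
  exact h5

/-- `g + g⁻¹` for `g ^ (q + 1) = 1` -/
theorem add_inv_pow {g g' : Module.End F V} (h1 : g * g' = 1) (h2 : g' * g = 1) (h : g ^ (Fintype.card F + 1) = 1) :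
    (g + g') ^ Fintype.card F = g + g' := by
  obtain ⟨p, hp⟩ := CharP.exists F
  obtain ⟨n, hpr, hn⟩ := FiniteField.card F p
  have := Fact.mk hpr
  rcases subsingleton_or_nontrivial V with hV | hV
  · exact Subsingleton.elim _ _
  have hch : CharP (Module.End F V) p := charP_of_injective_algebraMap (algebraMap F (Module.End F V)).injective p
  have hc : Commute g g' := by rw [Commute, SemiconjBy, h1, h2]
  have e1 : g ^ Fintype.card F = g' := by
    have h3 : g' * g ^ (Fintype.card F + 1) = g' := by rw [h, mul_one]
    rw [pow_succ', ← mul_assoc, h2, one_mul] at h3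
    exact h3
  have e2 : g' ^ Fintype.card F = g := by
    have h4 : g' ^ (Fintype.card F + 1) * g ^ (Fintype.card F + 1) = 1 := by
      rw [← hc.symm.mul_pow, h2, one_pow]
    rw [h, mul_one, pow_succ'] at h4
    have h5 : g * (g' * g' ^ Fintype.card F) = g := by rw [h4, mul_one]
    rw [← mul_assoc, h1, one_mul] at h5
    exact h5
  conv_lhs => rw [hn]
  rw [add_pow_char_pow_of_commute (p := p) _ hc, ← hn, e1, e2, add_comm]

end Cfsg.Agent.H953.O8R
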