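import Cfsg.Agent.H953.O8R.Sys
import Cfsg.Agent.H953.O8R.Eig

/-!
# S3691, row `PΩ⁺₈(q)`: SPIN: the dichotomy (helper953)
-/

set_option autoImplicit false
set_option linter.unusedSectionVars false

namespace Cfsg.Agent.H953.O8R

open Module QuadraticMap
open scoped commutatorElement

variable {F V Γ : Type} [Field F] [Fintype F] [AddCommGroup V] [Module F V] [FiniteDimensional F V] [Group Γ]

/-- restriction of `ρ` to a subgroup and an invariant subspace -/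
def rs (ρ : Γ →* Module.End F V) (A : Subgroup Γ) (U : Submodule F V) (h : ∀ x ∈ A, ∀ u ∈ U, ρ x u ∈ U) : A →* Module.End F U :=
  subRep (ρ.comp A.subtype) U fun x u hu => h x x.2 u hu

theorem rs_apply (ρ : Γ →* Module.End F V) (A : Subgroup Γ) (U : Submodule F V) (h : ∀ x ∈ A, ∀ u ∈ U, ρ x u ∈ U) (x : A) (u : U) :
    ((rs ρ A U h x u : U) : V) = ρ x u := rfl

theorem rs_one {ρ : Γ →* Module.End F V} {A : Subgroup Γ} {U : Submodule F V} {h : ∀ x ∈ A, ∀ u ∈ U, ρ x u ∈ U}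
    (h1 : ∀ x, rs ρ A U h x = 1) : ∀ x ∈ A, ∀ u ∈ U, ρ x u = u := fun x hx u hu =>
  congrArg Subtype.val (LinearMap.congr_fun (h1 ⟨x, hx⟩) ⟨u, hu⟩)

/-- an eigenspace of `g + g⁻¹` -/
theorem mem_eig {ρ : Γ →* Module.End F V} {g : Γ} {c : F} {v : V} :
    v ∈ (ρ g + ρ g⁻¹).eigenspace c ↔ ρ g v + ρ g⁻¹ v = c • v := by
  rw [Module.End.mem_eigenspace_iff, LinearMap.add_apply]

theorem rho_mul_inv (ρ : Γ →* Module.End F V) (g : Γ) (v : V) : ρ g (ρ g⁻¹ v) = v := by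
  rw [← Module.End.mul_apply, ← map_mul, mul_inv_cancel, map_one, Module.End.one_apply]

theorem rho_inv_mul (ρ : Γ →* Module.End F V) (g : Γ) (v : V) : ρ g⁻¹ (ρ g v) = v := by
  rw [← Module.End.mul_apply, ← map_mul, inv_mul_cancel, map_one, Module.End.one_apply]

theorem eig_sq {ρ : Γ →* Module.End F V} {g : Γ} {c : F} {v : V} (h : v ∈ (ρ g + ρ g⁻¹).eigenspace c) :
    ρ g (ρ g v) = c • ρ g v - v := by
  have h1 := congrArg (ρ g) (mem_eig.1 h)
  rw [map_add, rho_mul_inv, map_smul] at h1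
  rw [← h1, add_sub_cancel_right]

theorem eig_inv {ρ : Γ →* Module.End F V} {g x : Γ} (hx : x * g = g * x) {c : F} {v : V}
    (h : v ∈ (ρ g + ρ g⁻¹).eigenspace c) : ρ x v ∈ (ρ g + ρ g⁻¹).eigenspace c := by
  rw [mem_eig] at h ⊢
  have h1 : ρ g (ρ x v) = ρ x (ρ g v) := by
    rw [← Module.End.mul_apply, ← Module.End.mul_apply, ← map_mul, ← map_mul, hx]
  have hx' : x * g⁻¹ = g⁻¹ * x := by
    have := congrArg (fun y => g⁻¹ * y * g⁻¹) hx
    simp only [mul_assoc, mul_inv_cancel, mul_one, inv_mul_cancel_left] at this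
    exact this.symm
  have h2 : ρ g⁻¹ (ρ x v) = ρ x (ρ g⁻¹ v) := by
    rw [← Module.End.mul_apply, ← Module.End.mul_apply, ← map_mul, ← map_mul, hx']
  rw [h1, h2, ← map_add, h, map_smul]

/-- if `x² - c x + 1` has a root then `g` is `± 1` on the eigenspace -/
theorem eig_red {ρ : Γ →* Module.End F V} {g : Γ} (hg : g ^ (Fintype.card F + 1) = 1) {c : F} {m : F} (hm : m * m - c * m + 1 = 0)
    (hne : (ρ g + ρ g⁻¹).eigenspace c ≠ ⊥) : ∃ e : F, (e = 1 ∨ e = -1) ∧ ∀ v ∈ (ρ g + ρ g⁻¹).eigenspace c, ρ g v = e • v := by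
  have hm0 : m ≠ 0 := by
    rintro rfl
    simp at hm
  have hgN : ∀ v, (ρ g ^ (Fintype.card F + 1)) v = v := fun v => by
    rw [← map_pow, hg, map_one, Module.End.one_apply]
  have hpow : ∀ (a : F) (w : V), ρ g w = a • w → ∀ k : ℕ, (ρ g ^ k) w = a ^ k • w := by
    intro a w hw k
    induction k with
    | zero => rw [pow_zero, pow_zero, Module.End.one_apply, one_smul]
    | succ k ih => rw [pow_succ, Module.End.mul_apply, hw, map_smul, ih, smul_smul, pow_succ, mul_comm]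
  have hq : ∀ a : F, a ^ (Fintype.card F + 1) = a * a := fun a => by rw [pow_succ, FiniteField.pow_card]
  have hsq : ∀ (a : F) (w : V), ρ g w = a • w → w ≠ 0 → a * a = 1 := by
    intro a w hw hw0
    have h1 := hpow a w hw (Fintype.card F + 1)
    rw [hgN, hq] at h1
    have h2 : (a * a - 1) • w = 0 := by rw [sub_smul, one_smul, ← h1, sub_self]
    exact sub_eq_zero.1 ((smul_eq_zero.1 h2).resolve_right hw0)
  have hc : c = m + m⁻¹ := by
    field_simp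
    linear_combination -hm
  -- `m * m = 1`
  have hmm : m * m = 1 := by
    obtain ⟨v, hv, hv0⟩ := (Submodule.ne_bot_iff _).1 hne
    have hgg := eig_sq hv
    by_cases hw : ρ g v - m⁻¹ • v = 0
    · have h1 := hsq m⁻¹ v (sub_eq_zero.1 hw) hv0
      have h2 : m * m * (m⁻¹ * m⁻¹) = 1 := by field_simp
      rw [h1, mul_one] at h2
      exact h2
    · refine hsq m _ ?_ hw
      rw [map_sub, map_smul, hgg, hc, add_smul, smul_sub, smul_smul, mul_inv_cancel₀ hm0, one_smul]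
      abel
  have hinv : m⁻¹ = m := inv_eq_of_mul_eq_one_right hmm
  refine ⟨m, mul_self_eq_one_iff.1 hmm, fun v hv => ?_⟩
  have hgg := eig_sq hv
  rw [hc, hinv] at hgg
  have hw : ρ g (ρ g v - m • v) = m • (ρ g v - m • v) := by
    rw [map_sub, map_smul, hgg, add_smul, smul_sub, smul_smul, hmm, one_smul]
    abel
  obtain ⟨w, hwd⟩ : ∃ w, w = ρ g v - m • v := ⟨_, rfl⟩
  rw [← hwd] at hw
  have hgv : ρ g v = m • v + w := by rw [hwd]; abel
  have h3 : ∀ k : ℕ, (ρ g ^ k) v = m ^ k • v + ((k : F) * (m ^ k * m)) • w := by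
    intro k
    induction k with
    | zero => simp
    | succ k ih =>
      have h5 : m ^ (k + 1) * m = m ^ k := by rw [pow_succ, mul_assoc, hmm, mul_one]
      have h6 : (k : F) * (m ^ k * m) * m = (k : F) * m ^ k := by rw [mul_assoc, mul_assoc, hmm, mul_one]
      rw [pow_succ', Module.End.mul_apply, ih, map_add, map_smul, map_smul, hw, hgv, smul_smul, h6, h5, smul_add, smul_smul, add_assoc,
        ← add_smul, ← pow_succ]
      push_cast
      congr 2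
      ring
  have h4 := h3 (Fintype.card F + 1)
  rw [hgN, hq, hmm, one_smul, Nat.cast_add, Nat.cast_one, FiniteField.cast_card_eq_zero, zero_add, one_mul, one_mul] at h4
  have h5 : m • w = 0 := by
    have h6 : v + m • w = v + 0 := by rw [add_zero]; exact h4.symm
    exact add_left_cancel h6
  rw [hgv, (smul_eq_zero.1 h5).resolve_left hm0, add_zero]

/-- **the dichotomy** -/
theorem dich (ρ : Γ →* Module.End F V) (hV : finrank F V = 8) {g : Γ} (hg : g ^ (Fintype.card F + 1) = 1) {L A B : Subgroup Γ}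
    (hLg : ∀ x ∈ L, x * g = g * x) (hA : ⁅A, A⁆ = A) (hB : ⁅B, B⁆ = B) (hAB : ∀ a ∈ A, ∀ b ∈ B, a * b = b * a) (hAL : A ≤ L)
    (hBL : B ≤ L) (hcl : ∀ U : Submodule F V, (∀ x ∈ L, ∀ u ∈ U, ρ x u ∈ U) →
      ((∀ a ∈ A, ∀ u ∈ U, ρ a u = u) ∨ (∀ b ∈ B, ∀ u ∈ U, ρ b u = u)) → ∀ x ∈ L, ∀ u ∈ U, ρ x u = u) :
    (∃ c : F, (∀ x : F, x * x - c * x + 1 ≠ 0) ∧ ∀ v, ρ g (ρ g v) = c • ρ g v - v) ∨
      (∃ e : F, (e = 1 ∨ e = -1) ∧ ∀ x ∈ L, ∀ v, ρ x (ρ g v - e • v) = ρ g v - e • v) ∨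
      (∀ v, ρ g (ρ g v) = v) := by
  have hpA := comm_top hA
  have hpB := comm_top hB
  have hsup : ⨆ c : F, (ρ g + ρ g⁻¹).eigenspace c = ⊤ := by
    refine iSup_eig _ (add_inv_pow ?_ ?_ ?_)
    · rw [← map_mul, mul_inv_cancel, map_one]
    · rw [← map_mul, inv_mul_cancel, map_one]
    · rw [← map_pow, hg, map_one]
  have hinv : ∀ c, ∀ x ∈ L, ∀ u ∈ (ρ g + ρ g⁻¹).eigenspace c, ρ x u ∈ (ρ g + ρ g⁻¹).eigenspace c :=
    fun c x hx u hu => eig_inv (hLg x hx) hu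
  have hcm : ∀ a ∈ A, ∀ b ∈ B, ∀ v, ρ a (ρ b v) = ρ b (ρ a v) := by
    intro a ha b hb v
    rw [← Module.End.mul_apply, ← Module.End.mul_apply, ← map_mul, ← map_mul, hAB a ha b hb]
  have hgc : ∀ x ∈ L, ∀ v, ρ x (ρ g v) = ρ g (ρ x v) := by
    intro x hx v
    rw [← Module.End.mul_apply, ← Module.End.mul_apply, ← map_mul, ← map_mul, hLg x hx]
  -- an irreducible bad eigenvalue
  by_cases h1 : ∃ c : F, (∀ x : F, x * x - c * x + 1 ≠ 0) ∧ ¬ ∀ x ∈ L, ∀ v ∈ (ρ g + ρ g⁻¹).eigenspace c, ρ x v = v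
  · obtain ⟨c, hirr, hbad⟩ := h1
    refine Or.inl ⟨c, hirr, fun v => ?_⟩
    by_cases hd : finrank F ((ρ g + ρ g⁻¹).eigenspace c) ≤ 7
    · exfalso
      have hiA : ∀ x ∈ A, ∀ u ∈ (ρ g + ρ g⁻¹).eigenspace c, ρ x u ∈ (ρ g + ρ g⁻¹).eigenspace c := fun x hx => hinv c x (hAL hx)
      have hiB : ∀ x ∈ B, ∀ u ∈ (ρ g + ρ g⁻¹).eigenspace c, ρ x u ∈ (ρ g + ρ g⁻¹).eigenspace c := fun x hx => hinv c x (hBL hx)
      have hz : ∀ u ∈ (ρ g + ρ g⁻¹).eigenspace c, ρ g u ∈ (ρ g + ρ g⁻¹).eigenspace c := fun u hu => eig_inv rfl hu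
      refine hbad (hcl _ (hinv c) ?_)
      rcases lab6 hpA hpB hd hirr (z := (ρ g).restrict hz) (fun u => Subtype.ext (eig_sq u.2)) (rs ρ A _ hiA) (rs ρ B _ hiB)
        (fun a b w => Subtype.ext (hcm a a.2 b b.2 w)) (fun a w => Subtype.ext (hgc a (hAL a.2) w))
        (fun b w => Subtype.ext (hgc b (hBL b.2) w)) with h | h
      · exact Or.inl (rs_one h)
      · exact Or.inr (rs_one h)
    · have htop : (ρ g + ρ g⁻¹).eigenspace c = ⊤ := by
        apply Submodule.eq_top_of_finrank_eq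
        have := Submodule.finrank_le ((ρ g + ρ g⁻¹).eigenspace c)
        omega
      exact eig_sq (by rw [htop]; trivial)
  right
  push Not at h1
  -- a bad eigenvalue is `± 2`
  have hbad : ∀ c : F, (¬ ∀ x ∈ L, ∀ v ∈ (ρ g + ρ g⁻¹).eigenspace c, ρ x v = v) →
      (∃ e : F, (e = 1 ∨ e = -1) ∧ ∀ v ∈ (ρ g + ρ g⁻¹).eigenspace c, ρ g v = e • v) ∧
        4 ≤ finrank F ((ρ g + ρ g⁻¹).eigenspace c) := by
    intro c hc
    have h2 : ∃ m : F, m * m - c * m + 1 = 0 := by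
      by_contra h
      push Not at h
      exact hc (h1 c h)
    obtain ⟨m, hm⟩ := h2
    refine ⟨eig_red hg hm ?_, ?_⟩
    · intro h
      apply hc
      intro x _ v hv
      rw [h, Submodule.mem_bot] at hv
      rw [hv, map_zero]
    · by_contra hd
      have hiA : ∀ x ∈ A, ∀ u ∈ (ρ g + ρ g⁻¹).eigenspace c, ρ x u ∈ (ρ g + ρ g⁻¹).eigenspace c := fun x hx => hinv c x (hAL hx)
      have hiB : ∀ x ∈ B, ∀ u ∈ (ρ g + ρ g⁻¹).eigenspace c, ρ x u ∈ (ρ g + ρ g⁻¹).eigenspace c := fun x hx => hinv c x (hBL hx)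
      refine hc (hcl _ (hinv c) ?_)
      rcases lab hpA hpB (finrank F ((ρ g + ρ g⁻¹).eigenspace c)) (by omega) ((ρ g + ρ g⁻¹).eigenspace c) rfl (rs ρ A _ hiA)
        (rs ρ B _ hiB) (fun a b w => Subtype.ext (hcm a a.2 b b.2 w)) with h | h
      · exact Or.inl (rs_one h)
      · exact Or.inr (rs_one h)
  by_cases h3 : ∃ c₁ c₂ : F, c₁ ≠ c₂ ∧ (¬ ∀ x ∈ L, ∀ v ∈ (ρ g + ρ g⁻¹).eigenspace c₁, ρ x v = v) ∧
      (¬ ∀ x ∈ L, ∀ v ∈ (ρ g + ρ g⁻¹).eigenspace c₂, ρ x v = v)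
  · right
    obtain ⟨c₁, c₂, hne, hb1, hb2⟩ := h3
    obtain ⟨⟨e₁, he1, hg1⟩, hd1⟩ := hbad c₁ hb1
    obtain ⟨⟨e₂, he2, hg2⟩, hd2⟩ := hbad c₂ hb2
    have hdis : (ρ g + ρ g⁻¹).eigenspace c₁ ⊓ (ρ g + ρ g⁻¹).eigenspace c₂ = ⊥ := by
      rw [eq_bot_iff]
      rintro v ⟨hv1, hv2⟩
      rw [SetLike.mem_coe, Module.End.mem_eigenspace_iff] at hv1 hv2
      have h4 : (c₁ - c₂) • v = 0 := by rw [sub_smul, ← hv1, ← hv2, sub_self]
      exact (smul_eq_zero.1 h4).resolve_left (sub_ne_zero.2 hne)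
    have htop : (ρ g + ρ g⁻¹).eigenspace c₁ ⊔ (ρ g + ρ g⁻¹).eigenspace c₂ = ⊤ := by
      apply Submodule.eq_top_of_finrank_eq
      have h5 := Submodule.finrank_sup_add_finrank_inf_eq ((ρ g + ρ g⁻¹).eigenspace c₁) ((ρ g + ρ g⁻¹).eigenspace c₂)
      have h6 := Submodule.finrank_le ((ρ g + ρ g⁻¹).eigenspace c₁ ⊔ (ρ g + ρ g⁻¹).eigenspace c₂)
      rw [hdis, finrank_bot] at h5
      omega
    have hee : ∀ e : F, (e = 1 ∨ e = -1) → e * e = 1 := by
      rintro e (rfl | rfl)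
      · rw [one_mul]
      · rw [neg_mul_neg, one_mul]
    intro v
    have hv : v ∈ (ρ g + ρ g⁻¹).eigenspace c₁ ⊔ (ρ g + ρ g⁻¹).eigenspace c₂ := by rw [htop]; trivial
    obtain ⟨v1, hv1, v2, hv2, rfl⟩ := Submodule.mem_sup.1 hv
    rw [map_add, map_add, hg1 v1 hv1, hg2 v2 hv2, map_smul, map_smul, hg1 v1 hv1, hg2 v2 hv2, smul_smul, smul_smul, hee e₁ he1,
      hee e₂ he2, one_smul, one_smul]
  · left
    push Not at h3
    -- one sign
    have h4 : ∃ e : F, (e = 1 ∨ e = -1) ∧ ∀ c : F, (¬ ∀ x ∈ L, ∀ v ∈ (ρ g + ρ g⁻¹).eigenspace c, ρ x v = v) →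
        ∀ v ∈ (ρ g + ρ g⁻¹).eigenspace c, ρ g v = e • v := by
      by_cases h5 : ∃ c : F, ¬ ∀ x ∈ L, ∀ v ∈ (ρ g + ρ g⁻¹).eigenspace c, ρ x v = v
      · obtain ⟨c, hc⟩ := h5
        obtain ⟨⟨e, he, hge⟩, -⟩ := hbad c hc
        refine ⟨e, he, fun c' hc' => ?_⟩
        by_cases h6 : c = c'
        · rw [← h6]; exact hge
        · exfalso
          obtain h7 := h3 c c' h6
          push Not at hc hc'
          obtain ⟨x, hx, v, hv, hxv⟩ := hc'
          exact hxv (h7 hc x hx v hv)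
      · push Not at h5
        exact ⟨1, Or.inl rfl, fun c hc => absurd (h5 c) hc⟩
    obtain ⟨e, he, hge⟩ := h4
    refine ⟨e, he, fun x hx v => ?_⟩
    have hv : v ∈ ⨆ c : F, (ρ g + ρ g⁻¹).eigenspace c := by rw [hsup]; trivial
    induction hv using Submodule.iSup_induction' with
    | mem c v hv =>
      by_cases hc : ∀ x ∈ L, ∀ v ∈ (ρ g + ρ g⁻¹).eigenspace c, ρ x v = v
      · exact hc x hx _ (Submodule.sub_mem _ (eig_inv rfl hv) (Submodule.smul_mem _ _ hv))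
      · rw [hge c hc v hv, sub_self, map_zero]
    | zero => rw [map_zero, smul_zero, sub_self, map_zero]
    | add u v _ _ hu hv =>
      have h8 : ρ g (u + v) - e • (u + v) = (ρ g u - e • u) + (ρ g v - e • v) := by
        rw [map_add, smul_add]; abel
      rw [h8, map_add, hu, hv]

end Cfsg.Agent.H953.O8R
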