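import Mathlib

/-!
# S3691, row `PΩ⁺₈(q)`: SPIN: two commuting perfect groups on a space of dimension `≤ 3` (helper953)
-/

set_option autoImplicit false
set_option linter.unusedSectionVars false

namespace Cfsg.Agent.H953.O8R

open Module

section rep

variable {E W G : Type*} [Field E] [AddCommGroup W] [Module E W] [Group G]

/-- a perfect group with commutative image acts trivially -/
theorem triv_of_comm (hG : commutator G = ⊤) (ρ : G →* Module.End E W) (h : ∀ a b, ρ a * ρ b = ρ b * ρ a) (g : G) :
    ρ g = 1 := by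
  have h1 : commutator G ≤ ρ.ker := by
    rw [commutator_def, Subgroup.commutator_le]
    intro a _ b _
    rw [MonoidHom.mem_ker, commutatorElement_def, map_mul, map_mul, map_mul, h a b, mul_assoc (ρ b), ← map_mul ρ a,
      mul_inv_cancel, map_one, mul_one, ← map_mul, mul_inv_cancel, map_one]
  have h2 : g ∈ commutator G := by rw [hG]; exact Subgroup.mem_top g
  exact h1 h2

theorem unip (hG : commutator G = ⊤) (ρ : G →* Module.End E W) (H : Submodule E W) (h1 : ∀ g, ∀ x ∈ H, ρ g x = x)
    (h2 : ∀ g w, ρ g w - w ∈ H) (g : G) : ρ g = 1 := by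
  refine triv_of_comm hG ρ (fun a b => LinearMap.ext fun w => ?_) g
  rw [Module.End.mul_apply, Module.End.mul_apply]
  have e1 : ρ a (ρ b w) = ρ a w + (ρ b w - w) := by
    have h3 := h1 a _ (h2 b w)
    rw [map_sub] at h3
    rw [← h3]
    abel
  have e2 : ρ b (ρ a w) = ρ b w + (ρ a w - w) := by
    have h3 := h1 b _ (h2 a w)
    rw [map_sub] at h3
    rw [← h3]
    abel
  rw [e1, e2]
  abel

/-- restriction to an invariant subspace -/
def subRep (ρ : G →* Module.End E W) (H : Submodule E W) (hH : ∀ g, ∀ x ∈ H, ρ g x ∈ H) : G →* Module.End E H where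
  toFun g := (ρ g).restrict (hH g)
  map_one' := LinearMap.ext fun x => Subtype.ext (LinearMap.congr_fun (map_one ρ) x)
  map_mul' a b := LinearMap.ext fun x => Subtype.ext (LinearMap.congr_fun (map_mul ρ a b) x)

theorem subRep_apply (ρ : G →* Module.End E W) (H : Submodule E W) (hH : ∀ g, ∀ x ∈ H, ρ g x ∈ H) (g : G) (x : H) :
    ((subRep ρ H hH g x : H) : W) = ρ g x := rfl

/-- action on the quotient by an invariant subspace -/
def quotRep (ρ : G →* Module.End E W) (H : Submodule E W) (hH : ∀ g, ∀ x ∈ H, ρ g x ∈ H) : G →* Module.End E (W ⧸ H) where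
  toFun g := H.mapQ H (ρ g) (hH g)
  map_one' := by
    refine Submodule.linearMap_qext _ (LinearMap.ext fun x => ?_)
    simp
  map_mul' a b := by
    refine Submodule.linearMap_qext _ (LinearMap.ext fun x => ?_)
    simp

theorem quotRep_mk (ρ : G →* Module.End E W) (H : Submodule E W) (hH : ∀ g, ∀ x ∈ H, ρ g x ∈ H) (g : G) (x : W) :
    quotRep ρ H hH g (H.mkQ x) = H.mkQ (ρ g x) := rfl

theorem comm_of_finrank_le_one [FiniteDimensional E W] (h : finrank E W ≤ 1) (x y : Module.End E W) : x * y = y * x := by
  obtain ⟨v, hv⟩ := finrank_le_one_iff.1 h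
  obtain ⟨c, hc⟩ := hv (x v)
  obtain ⟨d, hd⟩ := hv (y v)
  refine LinearMap.ext fun w => ?_
  obtain ⟨e, rfl⟩ := hv w
  rw [Module.End.mul_apply, Module.End.mul_apply, map_smul, map_smul, map_smul, map_smul, ← hc, ← hd, map_smul, map_smul, ← hc,
    ← hd, smul_comm c d]

/-- **Schur** -/
theorem schur [Finite E] [FiniteDimensional E W] {A B : Type*} [Group A] [Group B] (ρA : A →* Module.End E W)
    (ρB : B →* Module.End E W) (hc : ∀ a b w, ρA a (ρB b w) = ρB b (ρA a w)) (hB : commutator B = ⊤)
    (hirr : ∀ H : Submodule E W, (∀ a, ∀ x ∈ H, ρA a x ∈ H) → H = ⊥ ∨ H = ⊤) (b : B) : ρB b = 1 := by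
  rcases subsingleton_or_nontrivial W with hW | hW
  · exact LinearMap.ext fun w => Subsingleton.elim _ _
  have hfW : Finite W := Module.finite_of_finite E
  have hfE : Finite (Module.End E W) :=
    Finite.of_injective (fun f => (f : W → W)) DFunLike.coe_injective
  have hdom : NoZeroDivisors (Subring.centralizer (Set.range ρA)) := by
    refine ⟨fun {x y} hxy => ?_⟩
    by_cases hx : x = 0
    · exact Or.inl hx
    right
    have hxc : ∀ a w, ρA a ((x : Module.End E W) w) = (x : Module.End E W) (ρA a w) := fun a w =>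
      LinearMap.congr_fun (Subring.mem_centralizer_iff.1 x.2 _ ⟨a, rfl⟩) w
    have hker : LinearMap.ker (x : Module.End E W) = ⊥ := by
      rcases hirr (LinearMap.ker (x : Module.End E W)) (fun a w hw => by
        rw [LinearMap.mem_ker] at hw ⊢
        rw [← hxc, hw, map_zero]) with h | h
      · exact h
      · exact absurd (Subtype.ext (LinearMap.ker_eq_top.1 h)) hx
    refine Subtype.ext (LinearMap.ext fun w => ?_)
    have h1 : (x : Module.End E W) ((y : Module.End E W) w) = 0 := by
      have h2 : ((x * y : Subring.centralizer (Set.range ρA)) : Module.End E W) w = 0 := by rw [hxy]; rfl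
      exact h2
    have h3 : (y : Module.End E W) w ∈ LinearMap.ker (x : Module.End E W) := h1
    rw [hker, Submodule.mem_bot] at h3
    exact h3
  have hnt : Nontrivial (Subring.centralizer (Set.range ρA)) := by
    refine ⟨0, 1, fun h => ?_⟩
    have h1 : (0 : Module.End E W) = 1 := congrArg Subtype.val h
    exact zero_ne_one h1
  have hD : IsDomain (Subring.centralizer (Set.range ρA)) := NoZeroDivisors.to_isDomain _
  have hF := Finite.isDomain_to_isField (Subring.centralizer (Set.range ρA))
  have hm : ∀ b, ρB b ∈ Subring.centralizer (Set.range ρA) := by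
    intro b
    rw [Subring.mem_centralizer_iff]
    rintro _ ⟨a, rfl⟩
    exact LinearMap.ext fun w => hc a b w
  refine triv_of_comm hB ρB (fun b c => ?_) b
  exact congrArg Subtype.val (hF.mul_comm ⟨ρB b, hm b⟩ ⟨ρB c, hm c⟩)

end rep

section lab

variable {E A B : Type*} [Field E] [Finite E] [Group A] [Group B]

theorem lab_step {W : Type*} [AddCommGroup W] [Module E W] {H : Submodule E W} {G : Type*} [Group G]
    (hG : commutator G = ⊤) (ρ : G →* Module.End E W) (hH : ∀ g, ∀ x ∈ H, ρ g x ∈ H)
    (h1 : ∀ g, subRep ρ H hH g = 1) (h2 : ∀ g, quotRep ρ H hH g = 1) : ∀ g, ρ g = 1 := by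
  refine unip hG ρ H (fun g x hx => ?_) (fun g w => ?_)
  · have := LinearMap.congr_fun (h1 g) ⟨x, hx⟩
    exact congrArg Subtype.val this
  · have := LinearMap.congr_fun (h2 g) (H.mkQ w)
    rw [quotRep_mk, Module.End.one_apply, ← sub_eq_zero, ← map_sub, Submodule.mkQ_apply, Submodule.Quotient.mk_eq_zero] at this
    exact this

universe u

/-- **two commuting perfect groups on a space of dimension `≤ 3`: one of them acts trivially** -/
theorem lab (hA : commutator A = ⊤) (hB : commutator B = ⊤) (n : ℕ) : n ≤ 3 → ∀ (W : Type u) [AddCommGroup W] [Module E W]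
    [FiniteDimensional E W], finrank E W = n → ∀ (ρA : A →* Module.End E W) (ρB : B →* Module.End E W),
    (∀ a b w, ρA a (ρB b w) = ρB b (ρA a w)) → (∀ a, ρA a = 1) ∨ (∀ b, ρB b = 1) := by
  induction n using Nat.strong_induction_on with
  | _ n ih =>
  intro hn W _ _ _ hW ρA ρB hc
  by_cases h1 : n ≤ 1
  · exact Or.inl (triv_of_comm hA ρA fun a b => comm_of_finrank_le_one (by omega) _ _)
  by_cases hirr : ∀ H : Submodule E W, (∀ a, ∀ x ∈ H, ρA a x ∈ H) → H = ⊥ ∨ H = ⊤
  · exact Or.inr (schur ρA ρB hc hB hirr)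
  -- it suffices to find a proper subspace invariant under both
  have key : ∀ H : Submodule E W, H ≠ ⊥ → H ≠ ⊤ → (∀ a, ∀ x ∈ H, ρA a x ∈ H) → (∀ b, ∀ x ∈ H, ρB b x ∈ H) →
      (∀ a, ρA a = 1) ∨ (∀ b, ρB b = 1) := by
    intro H h0 h1 hHA hHB
    have hd := H.finrank_quotient_add_finrank
    have hd0 : 0 < finrank E H := Nat.pos_of_ne_zero fun h => h0 (Submodule.finrank_eq_zero.1 h)
    have hd1 : finrank E H < n := by
      rw [← hW]
      exact Submodule.finrank_lt h1
    rw [hW] at hd
    by_cases h2 : finrank E H ≤ 1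
    · have tA := triv_of_comm hA (subRep ρA H hHA) fun a b => comm_of_finrank_le_one h2 _ _
      have tB := triv_of_comm hB (subRep ρB H hHB) fun a b => comm_of_finrank_le_one h2 _ _
      rcases ih (finrank E (W ⧸ H)) (by omega) (by omega) (W ⧸ H) rfl (quotRep ρA H hHA) (quotRep ρB H hHB)
        (fun a b w => by
          obtain ⟨w, rfl⟩ := H.mkQ_surjective w
          rw [quotRep_mk, quotRep_mk, quotRep_mk, quotRep_mk, hc]) with h | h
      · exact Or.inl (lab_step hA ρA hHA tA h)
      · exact Or.inr (lab_step hB ρB hHB tB h)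
    · have h3 : finrank E (W ⧸ H) ≤ 1 := by omega
      have tA := triv_of_comm hA (quotRep ρA H hHA) fun a b => comm_of_finrank_le_one h3 _ _
      have tB := triv_of_comm hB (quotRep ρB H hHB) fun a b => comm_of_finrank_le_one h3 _ _
      rcases ih (finrank E H) (by omega) (by omega) H rfl (subRep ρA H hHA) (subRep ρB H hHB)
        (fun a b w => Subtype.ext (hc a b w)) with h | h
      · exact Or.inl (lab_step hA ρA hHA h tA)
      · exact Or.inr (lab_step hB ρB hHB h tB)
  push Not at hirr
  obtain ⟨H, hH, h0, h2⟩ := hirr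
  by_cases h3 : finrank E H ≤ 1
  · -- the fixed space
    have tA := triv_of_comm hA (subRep ρA H hH) fun a b => comm_of_finrank_le_one h3 _ _
    let C : Submodule E W :=
      { carrier := {w | ∀ a, ρA a w = w}
        add_mem' := fun {x y} hx hy a => by rw [map_add, hx a, hy a]
        zero_mem' := fun a => map_zero _
        smul_mem' := fun c x hx a => by rw [map_smul, hx a] }
    have hCH : H ≤ C := fun x hx a => congrArg Subtype.val (LinearMap.congr_fun (tA a) ⟨x, hx⟩)
    by_cases hC : C = ⊤
    · left
      intro a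
      refine LinearMap.ext fun w => ?_
      have : w ∈ C := by rw [hC]; exact Submodule.mem_top
      exact this a
    refine key C (fun h => h0 (le_bot_iff.1 (h ▸ hCH))) hC (fun a x hx => ?_) (fun b x hx a => ?_)
    · rw [hx a]; exact hx
    · rw [hc, hx a]
  · have hd := H.finrank_quotient_add_finrank
    have h4 : finrank E (W ⧸ H) ≤ 1 := by omega
    have tA := triv_of_comm hA (quotRep ρA H hH) fun a b => comm_of_finrank_le_one h4 _ _
    have hsub : ∀ a w, ρA a w - w ∈ H := by
      intro a w
      have := LinearMap.congr_fun (tA a) (H.mkQ w)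
      rw [quotRep_mk, Module.End.one_apply, ← sub_eq_zero, ← map_sub, Submodule.mkQ_apply, Submodule.Quotient.mk_eq_zero] at this
      exact this
    have hCH : Submodule.span E {x : W | ∃ a w, x = ρA a w - w} ≤ H := by
      rw [Submodule.span_le]
      rintro _ ⟨a, w, rfl⟩
      exact hsub a w
    by_cases hC : Submodule.span E {x : W | ∃ a w, x = ρA a w - w} = ⊥
    · left
      intro a
      refine LinearMap.ext fun w => ?_
      have : ρA a w - w ∈ Submodule.span E {x : W | ∃ a w, x = ρA a w - w} := Submodule.subset_span ⟨a, w, rfl⟩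
      rw [hC, Submodule.mem_bot, sub_eq_zero] at this
      exact this
    refine key _ hC (fun h => h2 (top_le_iff.1 (h ▸ hCH))) (fun a x hx => ?_) (fun b x hx => ?_)
    · have h5 : ρA a x - x ∈ Submodule.span E {x : W | ∃ a w, x = ρA a w - w} := Submodule.subset_span ⟨a, x, rfl⟩
      have h6 := Submodule.add_mem _ h5 hx
      rwa [sub_add_cancel] at h6
    · induction hx using Submodule.span_induction with
      | mem x hx =>
        obtain ⟨a, w, rfl⟩ := hx
        refine Submodule.subset_span ⟨a, ρB b w, ?_⟩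
        rw [map_sub, hc]
      | zero => rw [map_zero]; exact Submodule.zero_mem _
      | add x y _ _ hx hy => rw [map_add]; exact Submodule.add_mem _ hx hy
      | smul c x _ hx => rw [map_smul]; exact Submodule.smul_mem _ _ hx

end lab

end Cfsg.Agent.H953.O8R
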