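import Cfsg.Agent.H953.O8R.Lab

/-!
# S3691, row `PΩ⁺₈(q)`: SPIN: the lemma on two commuting groups over `F[z]` (helper953)
-/

set_option autoImplicit false
set_option linter.unusedSectionVars false

namespace Cfsg.Agent.H953.O8R

open Module Polynomial

variable {F : Type} [Field F] [Finite F] {A B : Type} [Group A] [Group B]

/-- two commuting perfect groups which centralise `z`, `z² = c z - 1` irreducible, on a space of dimension `≤ 7` -/
theorem lab6 (hA : commutator A = ⊤) (hB : commutator B = ⊤) {U : Type} [AddCommGroup U] [Module F U] [FiniteDimensional F U]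
    (hU : finrank F U ≤ 7) {z : Module.End F U} {c : F} (hirr : ∀ x : F, x * x - c * x + 1 ≠ 0)
    (hz : ∀ v, z (z v) = c • z v - v) (ρA : A →* Module.End F U) (ρB : B →* Module.End F U)
    (hc : ∀ a b w, ρA a (ρB b w) = ρB b (ρA a w)) (hAz : ∀ a w, ρA a (z w) = z (ρA a w))
    (hBz : ∀ b w, ρB b (z w) = z (ρB b w)) : (∀ a, ρA a = 1) ∨ (∀ b, ρB b = 1) := by
  have hdeg : (X ^ 2 - C c * X + 1 : F[X]).natDegree = 2 := by compute_degree!
  have hI : Irreducible (X ^ 2 - C c * X + 1 : F[X]) := by
    refine irreducible_of_degree_le_three_of_not_isRoot (by rw [hdeg]; simp) fun x hx => hirr x ?_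
    have h1 : (X ^ 2 - C c * X + 1 : F[X]).eval x = 0 := hx
    simp only [eval_add, eval_sub, eval_pow, eval_X, eval_mul, eval_C, eval_one] at h1
    rw [← h1]
    ring
  have hfact : Fact (Irreducible (X ^ 2 - C c * X + 1 : F[X])) := ⟨hI⟩
  have hz' : Polynomial.aeval z (X ^ 2 - C c * X + 1 : F[X]) = 0 := by
    refine LinearMap.ext fun v => ?_
    simp only [map_add, map_sub, map_pow, aeval_X, map_mul, aeval_C, map_one, LinearMap.add_apply, LinearMap.sub_apply,
      Module.End.mul_apply, Module.algebraMap_end_apply, Module.End.one_apply, LinearMap.zero_apply, pow_two, hz]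
    abel
  obtain ⟨f, hf⟩ : ∃ f : F[X], f = X ^ 2 - C c * X + 1 := ⟨_, rfl⟩
  rw [← hf] at hdeg hI hfact hz'
  let φ : AdjoinRoot f →+* Module.End F U := Ideal.Quotient.lift (Ideal.span {f})
    ((Polynomial.aeval z : F[X] →ₐ[F] Module.End F U) : F[X] →+* Module.End F U) (by
      intro a ha
      obtain ⟨b, rfl⟩ := Ideal.mem_span_singleton'.1 ha
      show Polynomial.aeval z (b * f) = 0
      rw [map_mul, hz', mul_zero])
  have hφ : ∀ g : F[X], φ (AdjoinRoot.mk f g) = Polynomial.aeval z g := fun g => rfl
  let _ : Module (AdjoinRoot f) U := Module.compHom U φ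
  have hsm : ∀ (e : AdjoinRoot f) (u : U), e • u = φ e u := fun e u => rfl
  have : IsScalarTower F (AdjoinRoot f) U := ⟨fun a e u => by
    obtain ⟨g, rfl⟩ := AdjoinRoot.mk_surjective e
    rw [hsm, hsm, hφ]
    have h1 : a • AdjoinRoot.mk f g = AdjoinRoot.mk f (a • g) := rfl
    rw [h1, hφ, map_smul, LinearMap.smul_apply]⟩
  have hfin2 : finrank F (AdjoinRoot f) = 2 := by
    rw [← hdeg]
    exact finrank_quotient_span_eq_natDegree
  have hfd : FiniteDimensional F (AdjoinRoot f) := FiniteDimensional.of_finrank_pos (by rw [hfin2]; norm_num)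
  have hfinE : Finite (AdjoinRoot f) := Module.finite_of_finite F
  have hfdU : FiniteDimensional (AdjoinRoot f) U := FiniteDimensional.right F (AdjoinRoot f) U
  have hmul : finrank F (AdjoinRoot f) * finrank (AdjoinRoot f) U = finrank F U := Module.finrank_mul_finrank F (AdjoinRoot f) U
  rw [hfin2] at hmul
  -- linearity
  have hlin : ∀ y : Module.End F U, (∀ w, y (z w) = z (y w)) → ∀ (e : AdjoinRoot f) (u : U), y (e • u) = e • y u := by
    intro y hy e u
    obtain ⟨g, rfl⟩ := AdjoinRoot.mk_surjective e
    rw [hsm, hsm, hφ]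
    have h1 : Algebra.adjoin F {z} ≤ Subalgebra.centralizer F {y} := by
      refine Algebra.adjoin_le ?_
      rw [Set.singleton_subset_iff, SetLike.mem_coe, Subalgebra.mem_centralizer_iff]
      intro x hx
      rw [Set.mem_singleton_iff] at hx
      rw [hx]
      exact LinearMap.ext hy
    have h2 : Polynomial.aeval z g ∈ Subalgebra.centralizer F {y} :=
      h1 (Polynomial.aeval_mem_adjoin_singleton F z)
    rw [Subalgebra.mem_centralizer_iff] at h2
    exact LinearMap.congr_fun (h2 y rfl) u
  let ρA' : A →* Module.End (AdjoinRoot f) U :=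
    { toFun := fun a => { toFun := ρA a, map_add' := map_add _, map_smul' := fun e u => hlin _ (hAz a) e u }
      map_one' := LinearMap.ext fun u => LinearMap.congr_fun (map_one ρA) u
      map_mul' := fun a b => LinearMap.ext fun u => LinearMap.congr_fun (map_mul ρA a b) u }
  let ρB' : B →* Module.End (AdjoinRoot f) U :=
    { toFun := fun a => { toFun := ρB a, map_add' := map_add _, map_smul' := fun e u => hlin _ (hBz a) e u }
      map_one' := LinearMap.ext fun u => LinearMap.congr_fun (map_one ρB) u
      map_mul' := fun a b => LinearMap.ext fun u => LinearMap.congr_fun (map_mul ρB a b) u }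
  rcases lab hA hB (finrank (AdjoinRoot f) U) (by omega) U rfl ρA' ρB' hc with h | h
  · exact Or.inl fun a => LinearMap.ext fun u => LinearMap.congr_fun (h a) u
  · exact Or.inr fun b => LinearMap.ext fun u => LinearMap.congr_fun (h b) u

end Cfsg.Agent.H953.O8R
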