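import Cfsg.Agent.H953.O8R.Dich
import Cfsg.Agent.H951.Lin

/-!
# S3691, row `PΩ⁺₈(q)`: SPIN: the dichotomy for the rotation data (helper953)
-/

set_option autoImplicit false
set_option linter.unusedSectionVars false

namespace Cfsg.Agent.H953.O8R

open Module QuadraticMap
open scoped commutatorElement

variable {F V Γ T G : Type} [Field F] [Fintype F] [AddCommGroup V] [Module F V] [FiniteDimensional F V] [Group Γ] [Group T] [Group G]
  {Q : QuadraticForm F V} {ρ : Γ →* Module.End F V} {π : Γ →* T} {f : G →* T} {n : ℕ} {t : Fin 3 → G}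
  {L : Fin 3 → Subgroup G} {A B : Subgroup G}

theorem Sys.exists_ne (hS : Sys Q ρ π) : ∃ v, Q v ≠ 0 := by
  by_contra h
  push Not at h
  have h1 : ∀ v : V, v = 0 := fun v => hS.nondeg v fun u => by rw [polar, h, h, h, sub_zero, sub_zero]
  have h2 : Subsingleton V := ⟨fun a b => by rw [h1 a, h1 b]⟩
  have h3 := hS.dim
  rw [finrank_zero_of_subsingleton] at h3
  omega

theorem Sys.scal (hS : Sys Q ρ π) {g : Γ} {e : F} (h : ∀ v, ρ g v = e • v) : e = 1 ∨ e = -1 := by
  obtain ⟨v, hv⟩ := hS.exists_ne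
  have h1 := hS.iso g v
  rw [h, QuadraticMap.map_smul, smul_eq_mul] at h1
  have h2 : (e * e - 1) * Q v = 0 := by rw [sub_mul, one_mul, h1, sub_self]
  exact mul_self_eq_one_iff.1 (sub_eq_zero.1 ((mul_eq_zero.1 h2).resolve_right hv))

theorem ee {e : F} (h : e = 1 ∨ e = -1) : e * e = 1 := by
  rcases h with rfl | rfl
  · rw [one_mul]
  · rw [neg_mul_neg, one_mul]

theorem Sys.lift (hS : Sys Q ρ π) {x y : Γ} (h : π x = π y) : ∃ e : F, (e = 1 ∨ e = -1) ∧ ∀ v, ρ x v = e • ρ y v := by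
  have h1 : π (y⁻¹ * x) = 1 := by rw [map_mul, map_inv, h, inv_mul_cancel]
  obtain ⟨e, he⟩ := (hS.ker _).1 h1
  refine ⟨e, hS.scal he, fun v => ?_⟩
  rw [← map_smul, ← he, ← Module.End.mul_apply, ← map_mul, mul_inv_cancel_left]

theorem perf_map (h : ⁅A, A⁆ = A) : ⁅A.map f, A.map f⁆ = A.map f := by
  rw [← Subgroup.map_commutator, h]

/-- a lift of an element with `t ^ n = 1`, `n (2, q - 1) = q + 1` -/
theorem Sys.pow_lift (hS : Sys Q ρ π) (hn : n * Nat.gcd 2 (Fintype.card F - 1) = Fintype.card F + 1) {g : Γ} {y : G}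
    (hg : π g = f y) (hy : y ^ n = 1) : g ^ (Fintype.card F + 1) = 1 := by
  have h1 : π (g ^ n) = 1 := by rw [map_pow, hg, ← map_pow, hy, map_one]
  obtain ⟨e, he⟩ := (hS.ker _).1 h1
  have h2 := hS.scal he
  apply hS.inj
  rw [map_one]
  refine LinearMap.ext fun v => ?_
  rw [Module.End.one_apply]
  have hd : Nat.gcd 2 (Fintype.card F - 1) = 1 ∨ Nat.gcd 2 (Fintype.card F - 1) = 2 :=
    (Nat.dvd_prime Nat.prime_two).1 (Nat.gcd_dvd_left _ _)
  rcases hd with hd | hd
  · have h2' : (2 : F) = 0 := by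
      have h5 : Fintype.card F % 2 = 0 := by
        by_contra h5
        have h6 : 2 ∣ Fintype.card F - 1 := by
          have := Fintype.one_lt_card (α := F)
          omega
        have h7 : 2 ∣ Nat.gcd 2 (Fintype.card F - 1) := Nat.dvd_gcd dvd_rfl h6
        rw [hd] at h7
        omega
      have h6 : (2 : ℕ) ∣ Fintype.card F := Nat.dvd_of_mod_eq_zero h5
      obtain ⟨p, hp⟩ := CharP.exists F
      obtain ⟨m, hpr, hm⟩ := FiniteField.card F p
      have h7 : 2 ∣ p := Nat.prime_two.dvd_of_dvd_pow (hm ▸ h6)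
      have h8 : 2 = p := (Nat.prime_dvd_prime_iff_eq Nat.prime_two hpr).1 h7
      subst h8
      exact_mod_cast CharP.cast_eq_zero F 2
    have he1 : e = 1 := by
      rcases h2 with h2 | h2
      · exact h2
      · rw [h2]
        have : (1 : F) + 1 = 0 := by rw [one_add_one_eq_two, h2']
        exact neg_eq_of_add_eq_zero_left this
    rw [hd, mul_one] at hn
    rw [← hn, he, he1, one_smul]
  · rw [hd] at hn
    rw [← hn, pow_mul, pow_two, map_mul, Module.End.mul_apply, he, he, smul_smul, ee h2, one_smul]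

/-- closure -/
theorem closure (hS : Sys Q ρ π) {L0 : Subgroup G} (hL : ⁅L0, L0⁆ = L0) (hA : ⁅A, A⁆ = A) (hAL : A ≤ L0)
    (htop : ∀ N : Subgroup G, N ≤ L0 → (∀ g ∈ L0, ∀ x ∈ N, g * x * g⁻¹ ∈ N) → A ≤ N → N = L0) {U : Submodule F V}
    (hU : ∀ x ∈ hat π (L0.map f), ∀ u ∈ U, ρ x u ∈ U) (h : ∀ a ∈ hat π (A.map f), ∀ u ∈ U, ρ a u = u) :
    ∀ x ∈ hat π (L0.map f), ∀ u ∈ U, ρ x u = u := by
  have hLf := perf_map (f := f) hL
  have hAf := perf_map (f := f) hA
  let N : Subgroup G :=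
    { carrier := {y | y ∈ L0 ∧ ∃ x ∈ hat π (L0.map f), π x = f y ∧ ∀ u ∈ U, ρ x u = u}
      mul_mem' := by
        rintro y y' ⟨hy, x, hx, he, hu⟩ ⟨hy', x', hx', he', hu'⟩
        refine ⟨mul_mem hy hy', x * x', mul_mem hx hx', by rw [map_mul, map_mul, he, he'], fun u huU => ?_⟩
        rw [map_mul, Module.End.mul_apply, hu' u huU, hu u huU]
      one_mem' := ⟨one_mem _, 1, one_mem _, by rw [map_one, map_one], fun u _ => by rw [map_one, Module.End.one_apply]⟩
      inv_mem' := by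
        rintro y ⟨hy, x, hx, he, hu⟩
        refine ⟨inv_mem hy, x⁻¹, inv_mem hx, by rw [map_inv, map_inv, he], fun u huU => ?_⟩
        conv_lhs => rw [← hu u huU]
        rw [rho_inv_mul] }
  have hN : N = L0 := by
    refine htop N (fun y hy => hy.1) ?_ ?_
    · rintro g hg y ⟨hy, x, hx, he, hu⟩
      obtain ⟨X, hX, heX⟩ := exists_hat hS.surj hLf (Subgroup.mem_map_of_mem f hg)
      refine ⟨mul_mem (mul_mem hg hy) (inv_mem hg), X * x * X⁻¹, mul_mem (mul_mem hX hx) (inv_mem hX), ?_, fun u huU => ?_⟩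
      · rw [map_mul, map_mul, map_inv, heX, he, map_mul, map_mul, map_inv]
      · rw [map_mul, map_mul, Module.End.mul_apply, Module.End.mul_apply, hu _ (hU _ (inv_mem hX) u huU), rho_mul_inv]
    · intro a ha
      obtain ⟨X, hX, heX⟩ := exists_hat hS.surj hAf (Subgroup.mem_map_of_mem f ha)
      exact ⟨hAL ha, X, hat_mono (Subgroup.map_mono hAL) hX, heX, h X hX⟩
  have hpL := comm_top (hat_perf hS.central hS.surj hLf)
  have hsc : ∀ x ∈ hat π (L0.map f), ∃ e : F, ∀ u ∈ U, ρ x u = e • u := by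
    intro x hx
    obtain ⟨y, hy, he⟩ := mem_of_hat hx
    have hyN : y ∈ N := by rw [hN]; exact hy
    obtain ⟨-, x', hx', he', hu'⟩ := hyN
    obtain ⟨e, -, h2⟩ := hS.lift (x := x) (y := x') (by rw [he', he])
    exact ⟨e, fun u hu => by rw [h2, hu' u hu]⟩
  refine rs_one (h := hU) fun x => triv_of_comm hpL _ (fun a b => ?_) x
  obtain ⟨e, he⟩ := hsc a a.2
  obtain ⟨e', he'⟩ := hsc b b.2
  refine LinearMap.ext fun u => Subtype.ext ?_
  rw [Module.End.mul_apply, Module.End.mul_apply, rs_apply, rs_apply, rs_apply, rs_apply, he' _ u.2, map_smul, he _ u.2, map_smul,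
    he' _ u.2, smul_comm]

theorem Rot.hcl (hS : Sys Q ρ π) (hD : Rot G n t L A B) {U : Submodule F V}
    (hU : ∀ x ∈ hat π ((L 0).map f), ∀ u ∈ U, ρ x u ∈ U)
    (h : (∀ a ∈ hat π (A.map f), ∀ u ∈ U, ρ a u = u) ∨ (∀ b ∈ hat π (B.map f), ∀ u ∈ U, ρ b u = u)) :
    ∀ x ∈ hat π ((L 0).map f), ∀ u ∈ U, ρ x u = u := by
  rcases h with h | h
  · exact closure hS (hD.perf 0) hD.A_perf hD.A_le hD.A_top hU h
  · exact closure hS (hD.perf 0) hD.B_perf hD.B_le hD.B_top hU h

theorem Rot.hat_cent (hS : Sys Q ρ π) (hD : Rot G n t L A B) {g : Γ} {i : Fin 3} (hg : π g = f (t i)) :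
    ∀ x ∈ hat π ((L i).map f), x * g = g * x := by
  intro x hx
  refine (hat_comm hS.central (x := g) ?_ hx).symm
  rintro _ ⟨y, hy, rfl⟩
  rw [hg, ← map_mul, ← map_mul, hD.cent i y hy]

/-- **the dichotomy for the rotation data** -/
theorem Rot.dich (hS : Sys Q ρ π) (hf : Function.Injective f) (hD : Rot G n t L A B)
    (hn : n * Nat.gcd 2 (Fintype.card F - 1) = Fintype.card F + 1) {g : Γ} (hg : π g = f (t 0)) :
    (∃ c : F, (∀ x : F, x * x - c * x + 1 ≠ 0) ∧ ∀ v, ρ g (ρ g v) = c • ρ g v - v) ∨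
      (∃ e : F, (e = 1 ∨ e = -1) ∧ ∀ x ∈ hat π ((L 0).map f), ∀ v, ρ x (ρ g v - e • v) = ρ g v - e • v) := by
  have hgN := hS.pow_lift hn hg (hD.pow 0)
  have hA := hat_perf hS.central hS.surj (perf_map (f := f) hD.A_perf)
  have hB := hat_perf hS.central hS.surj (perf_map (f := f) hD.B_perf)
  have hAB : ∀ a ∈ hat π (A.map f), ∀ b ∈ hat π (B.map f), a * b = b * a := by
    intro a ha b hb
    refine hat_comm hS.central (x := a) ?_ hb
    rintro _ ⟨b', hb', rfl⟩
    obtain ⟨a', ha', he⟩ := mem_of_hat ha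
    rw [← he, ← map_mul, ← map_mul, hD.comm a' ha' b' hb']
  rcases O8R.dich ρ hS.dim hgN (hD.hat_cent hS hg) hA hB hAB (hat_mono (Subgroup.map_mono hD.A_le))
    (hat_mono (Subgroup.map_mono hD.B_le)) (fun U hU h => hD.hcl hS hU h) with h | h | h
  · exact Or.inl h
  · exact Or.inr h
  · exfalso
    have h1 : π (g * g) = 1 := (hS.ker _).2 ⟨1, fun v => by rw [map_mul, Module.End.mul_apply, h, one_smul]⟩
    rw [map_mul, hg, ← map_mul, ← pow_two] at h1
    exact hD.sq 0 (hf (by rw [h1, map_one]))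

/-- a perfect group commuting with `z`, `z² = c z - 1` irreducible, on a plane -/
theorem comm_plane {W : Type} [AddCommGroup W] [Module F W] [FiniteDimensional F W] (hW : finrank F W = 2) {z : Module.End F W} {c : F}
    (hirr : ∀ x : F, x * x - c * x + 1 ≠ 0) (hz : ∀ v, z (z v) = c • z v - v) {x y : Module.End F W}
    (hx : ∀ v, x (z v) = z (x v)) (hy : ∀ v, y (z v) = z (y v)) : x * y = y * x := by
  have hnt : Nontrivial W := Module.nontrivial_of_finrank_pos (R := F) (by rw [hW]; norm_num)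
  obtain ⟨v, hv⟩ := exists_ne (0 : W)
  have hli : LinearIndependent F ![v, z v] := by
    rw [LinearIndependent.pair_iff' hv]
    intro a ha
    apply hirr a
    have h1 := hz v
    rw [← ha, map_smul, ← ha, smul_smul, smul_smul] at h1
    have h2 : (a * a - c * a + 1) • v = 0 := by
      rw [add_smul, sub_smul, h1, one_smul]
      abel
    exact (smul_eq_zero.1 h2).resolve_right hv
  have hspan : ∀ w : W, ∃ a b : F, w = a • v + b • z v := by
    intro w
    have h1 : Submodule.span F (Set.range ![v, z v]) = ⊤ := hli.span_eq_top_of_card_eq_finrank' (by rw [hW]; rfl)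
    have h2 : w ∈ Submodule.span F (Set.range ![v, z v]) := by rw [h1]; trivial
    rw [Matrix.range_cons, Matrix.range_cons, Matrix.range_empty, Set.union_empty] at h2
    obtain ⟨a, b, h3⟩ := Submodule.mem_span_pair.1 h2
    exact ⟨a, b, h3.symm⟩
  obtain ⟨a, b, hab⟩ := hspan (x v)
  have hxx : ∀ w, x w = a • w + b • z w := by
    intro w
    obtain ⟨d, e, rfl⟩ := hspan w
    simp only [map_add, map_smul, hx, hab, smul_add]
    module
  refine LinearMap.ext fun w => ?_
  rw [Module.End.mul_apply, Module.End.mul_apply, hxx, hxx, map_add, map_smul, map_smul, hy]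

/-- in the case of a quadratic element there is no invariant plane -/
theorem Rot.kill (hS : Sys Q ρ π) (hf : Function.Injective f) (hD : Rot G n t L A B) {g : Γ} (hg : π g = f (t 0)) {c : F}
    (hirr : ∀ x : F, x * x - c * x + 1 ≠ 0) (hz : ∀ v, ρ g (ρ g v) = c • ρ g v - v) {W : Submodule F V} (hW : finrank F W = 2)
    (hgW : ∀ w ∈ W, ρ g w ∈ W) (hLW : ∀ x ∈ hat π ((L 0).map f), ∀ w ∈ W, ρ x w ∈ W) : False := by
  have hL := hat_perf hS.central hS.surj (perf_map (f := f) (hD.perf 0))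
  have hcent := hD.hat_cent hS hg
  have hgc : ∀ x ∈ hat π ((L 0).map f), ∀ v, ρ x (ρ g v) = ρ g (ρ x v) := by
    intro x hx v
    rw [← Module.End.mul_apply, ← Module.End.mul_apply, ← map_mul, ← map_mul, hcent x hx]
  -- the lift of `L 0` is trivial on `W`
  have h1 : ∀ x ∈ hat π ((L 0).map f), ∀ w ∈ W, ρ x w = w := by
    refine rs_one (h := hLW) fun x => triv_of_comm (comm_top hL) _ (fun a b => ?_) x
    exact comm_plane hW hirr (z := (ρ g).restrict hgW) (fun v => Subtype.ext (hz v)) (fun v => Subtype.ext (hgc a a.2 v))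
      (fun v => Subtype.ext (hgc b b.2 v))
  have hA := hat_perf hS.central hS.surj (perf_map (f := f) hD.A_perf)
  have hB := hat_perf hS.central hS.surj (perf_map (f := f) hD.B_perf)
  have hAL : hat π (A.map f) ≤ hat π ((L 0).map f) := hat_mono (Subgroup.map_mono hD.A_le)
  have hBL : hat π (B.map f) ≤ hat π ((L 0).map f) := hat_mono (Subgroup.map_mono hD.B_le)
  have hAB : ∀ a ∈ hat π (A.map f), ∀ b ∈ hat π (B.map f), a * b = b * a := by
    intro a ha b hb
    refine hat_comm hS.central (x := a) ?_ hb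
    rintro _ ⟨b', hb', rfl⟩
    obtain ⟨a', ha', he⟩ := mem_of_hat ha
    rw [← he, ← map_mul, ← map_mul, hD.comm a' ha' b' hb']
  have hqd := W.finrank_quotient_add_finrank
  rw [hW, hS.dim] at hqd
  -- a subgroup trivial on `V` is trivial
  have htr : ∀ X : Subgroup G, ⁅X, X⁆ = X → (∀ a : hat π (X.map f), (ρ.comp (hat π (X.map f)).subtype) a = 1) → X = ⊥ := by
    intro X hX h
    rw [eq_bot_iff]
    intro y hy
    obtain ⟨x, hx, he⟩ := exists_hat hS.surj (perf_map (f := f) hX) (Subgroup.mem_map_of_mem f hy)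
    have h2 : x = 1 := hS.inj (by rw [map_one]; exact h ⟨x, hx⟩)
    rw [h2, map_one] at he
    exact hf (by rw [← he, map_one])
  have hne : L 0 ≠ ⊥ := by
    intro h
    have h2 := hD.mem 0 1 (by decide)
    rw [h, Subgroup.mem_bot] at h2
    exact hD.sq 1 (by rw [h2, one_pow])
  have hiA : ∀ a : hat π (A.map f), ∀ w ∈ W, (ρ.comp (hat π (A.map f)).subtype) a w ∈ W := fun a => hLW a (hAL a.2)
  have hiB : ∀ a : hat π (B.map f), ∀ w ∈ W, (ρ.comp (hat π (B.map f)).subtype) a w ∈ W := fun a => hLW a (hBL a.2)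
  rcases lab6 (comm_top hA) (comm_top hB) (U := V ⧸ W) (by omega) hirr (z := W.mapQ W (ρ g) hgW) (fun v => by
      obtain ⟨v, rfl⟩ := W.mkQ_surjective v
      simp only [Submodule.mkQ_apply, Submodule.mapQ_apply, hz]
      rfl)
    (quotRep (ρ.comp (hat π (A.map f)).subtype) W hiA) (quotRep (ρ.comp (hat π (B.map f)).subtype) W hiB)
    (fun a b v => by
      obtain ⟨v, rfl⟩ := W.mkQ_surjective v
      rw [quotRep_mk, quotRep_mk, quotRep_mk, quotRep_mk]
      congr 1
      show ρ a (ρ b v) = ρ b (ρ a v)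
      rw [← Module.End.mul_apply, ← Module.End.mul_apply, ← map_mul, ← map_mul, hAB a a.2 b b.2])
    (fun a v => by
      obtain ⟨v, rfl⟩ := W.mkQ_surjective v
      exact congrArg W.mkQ (hgc a (hAL a.2) v))
    (fun a v => by
      obtain ⟨v, rfl⟩ := W.mkQ_surjective v
      exact congrArg W.mkQ (hgc a (hBL a.2) v)) with h | h
  · have h3 := htr A hD.A_perf (lab_step (comm_top hA) _ hiA (fun a => LinearMap.ext fun w => Subtype.ext (h1 a (hAL a.2) w w.2)) h)
    exact hne (hD.A_top ⊥ bot_le (fun g _ x hx => by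
      rw [Subgroup.mem_bot] at hx
      rw [hx, mul_one, mul_inv_cancel]; exact one_mem _) (by rw [h3])).symm
  · have h3 := htr B hD.B_perf (lab_step (comm_top hB) _ hiB (fun a => LinearMap.ext fun w => Subtype.ext (h1 a (hBL a.2) w w.2)) h)
    exact hne (hD.B_top ⊥ bot_le (fun g _ x hx => by
      rw [Subgroup.mem_bot] at hx
      rw [hx, mul_one, mul_inv_cancel]; exact one_mem _) (by rw [h3])).symm

end Cfsg.Agent.H953.O8R
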