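import Cfsg.Agent.H953.O8R.Data
import Cfsg.Agent.H953.O8R.Lab2

/-!
# S3691, row `PΩ⁺₈(q)`: SPIN: projective representations and perfect lifts (helper953)
-/

set_option autoImplicit false
set_option linter.unusedSectionVars false

namespace Cfsg.Agent.H953.O8R

open Module QuadraticMap
open scoped commutatorElement

section hat

variable {Γ T : Type} [Group Γ] [Group T]

/-- the lift `[π⁻¹ M, π⁻¹ M]` of a perfect subgroup -/
def hat (π : Γ →* T) (M : Subgroup T) : Subgroup Γ := ⁅M.comap π, M.comap π⁆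

variable {π : Γ →* T} {M M' : Subgroup T}

theorem hat_le : hat π M ≤ M.comap π := Subgroup.commutator_le_self _

theorem mem_of_hat {x : Γ} (hx : x ∈ hat π M) : π x ∈ M := hat_le hx

theorem hat_mono (h : M ≤ M') : hat π M ≤ hat π M' := Subgroup.commutator_mono (Subgroup.comap_mono h) (Subgroup.comap_mono h)

theorem hat_map (hs : Function.Surjective π) (hM : ⁅M, M⁆ = M) : (hat π M).map π = M := by
  rw [hat, Subgroup.map_commutator, Subgroup.map_comap_eq_self_of_surjective hs, hM]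

theorem exists_hat (hs : Function.Surjective π) (hM : ⁅M, M⁆ = M) {y : T} (hy : y ∈ M) : ∃ x ∈ hat π M, π x = y := by
  rw [← hat_map hs hM] at hy
  exact hy

/-- an element whose image centralises `M` centralises the lift -/
theorem hat_comm (hz : ∀ z, π z = 1 → ∀ g, g * z = z * g) {x : Γ} (hx : ∀ m ∈ M, π x * m = m * π x) {y : Γ} (hy : y ∈ hat π M) :
    x * y = y * x := by
  have h1 : hat π M ≤ Subgroup.centralizer {x} := by
    rw [hat, Subgroup.commutator_le]
    intro a ha b hb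
    have key : ∀ a, a ∈ M.comap π → ∃ z, (∀ g, g * z = z * g) ∧ x * a * x⁻¹ = a * z := by
      intro a ha
      refine ⟨a⁻¹ * (x * a * x⁻¹), hz _ ?_, by group⟩
      rw [map_mul, map_mul, map_mul, map_inv, map_inv, hx _ ha]
      group
    obtain ⟨z, hz1, hz2⟩ := key a ha
    obtain ⟨z', hz1', hz2'⟩ := key b hb
    rw [Subgroup.mem_centralizer_singleton_iff]
    have h3 : x * ⁅a, b⁆ * x⁻¹ = ⁅a, b⁆ := by
      have h4 : x * ⁅a, b⁆ * x⁻¹ = ⁅x * a * x⁻¹, x * b * x⁻¹⁆ := by
        rw [commutatorElement_def, commutatorElement_def]; group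
      rw [h4, hz2, hz2', commutatorElement_def, commutatorElement_def]
      have e1 : a * z * (b * z') * (a * z)⁻¹ * (b * z')⁻¹ = a * (z * b) * z' * z⁻¹ * a⁻¹ * z'⁻¹ * b⁻¹ := by group
      rw [e1, ← hz1 b]
      have e2 : a * (b * z) * z' * z⁻¹ * a⁻¹ * z'⁻¹ * b⁻¹ = a * b * (z * z') * z⁻¹ * (z' * a)⁻¹ * b⁻¹ := by group
      rw [e2, hz1' z, ← hz1' a]
      group
    have h5 : x * ⁅a, b⁆ = ⁅a, b⁆ * x := by
      conv_rhs => rw [← h3]
      group
    first | exact h5 | exact h5.symm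
  have h2 := Subgroup.mem_centralizer_singleton_iff.1 (h1 hy)
  first | exact h2 | exact h2.symm

theorem hat_perf (hz : ∀ z, π z = 1 → ∀ g, g * z = z * g) (hs : Function.Surjective π) (hM : ⁅M, M⁆ = M) :
    ⁅hat π M, hat π M⁆ = hat π M := by
  refine le_antisymm (Subgroup.commutator_le_self _) ?_
  conv_lhs => rw [hat]
  rw [Subgroup.commutator_le]
  intro a ha b hb
  have key : ∀ a, a ∈ M.comap π → ∃ h ∈ hat π M, ∃ z, (∀ g, g * z = z * g) ∧ a = h * z := by
    intro a ha
    obtain ⟨h, hh, he⟩ := exists_hat hs hM ha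
    refine ⟨h, hh, h⁻¹ * a, hz _ ?_, by group⟩
    rw [map_mul, map_inv, he, inv_mul_cancel]
  obtain ⟨h, hh, z, hz1, rfl⟩ := key a ha
  obtain ⟨h', hh', z', hz1', rfl⟩ := key b hb
  have h3 : ⁅h * z, h' * z'⁆ = ⁅h, h'⁆ := by
    rw [commutatorElement_def, commutatorElement_def]
    have e1 : h * z * (h' * z') * (h * z)⁻¹ * (h' * z')⁻¹ = h * (z * h') * z' * z⁻¹ * h⁻¹ * z'⁻¹ * h'⁻¹ := by group
    rw [e1, ← hz1 h']
    have e2 : h * (h' * z) * z' * z⁻¹ * h⁻¹ * z'⁻¹ * h'⁻¹ = h * h' * (z * z') * z⁻¹ * (z' * h)⁻¹ * h'⁻¹ := by group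
    rw [e2, hz1' z, ← hz1' h]
    group
  rw [h3]
  exact Subgroup.commutator_mem_commutator hh hh'

theorem hat_cj (g : Γ) : hat π (cj (π g) M) = cj g (hat π M) := by
  have h1 : (cj (π g) M).comap π = cj g (M.comap π) := by
    ext x
    rw [Subgroup.mem_comap]
    constructor
    · rintro ⟨m, hm, he⟩
      refine ⟨g⁻¹ * x * g, ?_, ?_⟩
      · show π (g⁻¹ * x * g) ∈ M
        have h2 : π (g⁻¹ * x * g) = m := by
          rw [map_mul, map_mul, map_inv, ← he]
          show (π g)⁻¹ * (π g * m * (π g)⁻¹) * π g = m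
          group
        rw [h2]; exact hm
      · show g * (g⁻¹ * x * g) * g⁻¹ = x
        group
    · rintro ⟨m, hm, rfl⟩
      refine ⟨π m, hm, ?_⟩
      show π g * π m * (π g)⁻¹ = π (g * m * g⁻¹)
      rw [map_mul, map_mul, map_inv]
  rw [hat, h1, hat]
  exact (Subgroup.map_commutator _ _ _).symm

theorem comm_top {H : Subgroup Γ} (h : ⁅H, H⁆ = H) : commutator H = ⊤ := by
  apply Subgroup.map_injective H.subtype_injective
  rw [commutator_def, Subgroup.map_commutator, ← MonoidHom.range_eq_map, Subgroup.range_subtype, h]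

end hat

variable {F V Γ T : Type} [Field F] [Fintype F] [AddCommGroup V] [Module F V] [FiniteDimensional F V] [Group Γ] [Group T]

/-- `Γ` acts faithfully by isometries on the nondegenerate space `V` of dimension eight, `π : Γ → T` is the quotient by the scalars -/
structure Sys (Q : QuadraticForm F V) (ρ : Γ →* Module.End F V) (π : Γ →* T) : Prop where
  iso : ∀ g v, Q (ρ g v) = Q v
  inj : Function.Injective ρ
  surj : Function.Surjective π
  ker : ∀ g, π g = 1 ↔ ∃ e : F, ∀ v, ρ g v = e • v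
  nondeg : ∀ v, (∀ u, polar Q u v = 0) → v = 0
  dim : finrank F V = 8

theorem Sys.central {Q : QuadraticForm F V} {ρ : Γ →* Module.End F V} {π : Γ →* T} (hS : Sys Q ρ π) (z : Γ) (hz : π z = 1)
    (g : Γ) : g * z = z * g := by
  obtain ⟨e, he⟩ := (hS.ker z).1 hz
  apply hS.inj
  rw [map_mul, map_mul]
  refine LinearMap.ext fun v => ?_
  rw [Module.End.mul_apply, Module.End.mul_apply, he, he, map_smul]

variable {G : Type} [Group G]

/-- the elements `t i` lift to rotations `± r i` of three orthogonal planes `P i = [V, r i]`, on which the lift of `L i` is trivial -/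
structure RS (Q : QuadraticForm F V) (ρ : Γ →* Module.End F V) (π : Γ →* T) (f : G →* T) (t : Fin 3 → G) (L : Fin 3 → Subgroup G)
    (r : Fin 3 → Module.End F V) (c : F) : Prop where
  iso : ∀ i v, Q (r i v) = Q v
  lift : ∀ i (h : Γ), π h = f (t i) → ∃ e : F, (e = 1 ∨ e = -1) ∧ ∀ v, ρ h v = e • r i v
  dim : ∀ i, finrank F (LinearMap.range (r i - 1)) = 2
  irr : ∀ x : F, x * x - c * x + 1 ≠ 0
  quad : ∀ i, ∀ v ∈ LinearMap.range (r i - 1), r i (r i v) = c • r i v - v
  triv : ∀ i, ∀ x ∈ hat π ((L i).map f), ∀ v ∈ LinearMap.range (r i - 1), ρ x v = v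
  compl : ∀ i, IsCompl (LinearMap.range (r i - 1)) (LinearMap.ker (r i - 1))
  perp : ∀ i j, i ≠ j → ∀ u ∈ LinearMap.range (r i - 1), ∀ v ∈ LinearMap.range (r j - 1), polar Q u v = 0

end Cfsg.Agent.H953.O8R
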